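import Cfsg.Agent.H93.HT.AltRowOut
import Cfsg.Agent.H93.HT.AltIn
import Cfsg.Agent.H624.HT.RowOf

/-!
# S4933: the alternating row

* `row_alt` : `Row p (A_n)` for every prime `p` and every `n ≥ 5` (boxes 2.alt, o.alt).
-/

set_option autoImplicit false

namespace Cfsg.Agent.H93.HT

open Cfsg Cfsg.Agent.H316.HT

/-- **The alternating row.** -/
theorem row_alt (p : ℕ) [Fact p.Prime] (n : ℕ) (hn : 5 ≤ n) : Row p ↥(alternatingGroup (Fin n)) :=
  Cfsg.Agent.H624.HT.Row.of (rowIn_alt p n hn) (rowOut_alt p n hn)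

end Cfsg.Agent.H93.HT
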