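import Cfsg.Agent.H112.HT.Glue
import Cfsg.Agent.H649.Transport
import Cfsg.Agent.StandardComponent.AltAut
import Cfsg.Agent.S2119
import Cfsg.Agent.OddOrderCharacters.PF9.GaloisClifford
import Cfsg.Agent.H316.HT.Defs

/-!
# S4933, the almost simple groups with alternating socle

* `exists_emb` : a group acting on `N ≃* A_n` by conjugations with permutations embeds in the symmetric group;
* `good_of_sym` : the case of the symmetric group, `p = 2`.
-/

set_option autoImplicit false

open Subgroup

namespace Cfsg.Agent.H93.HT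

open Cfsg Cfsg.Agent.H316.HT Equiv Cfsg.Agent.H112.HT

universe u

/-- a character of even degree is not trivial on a normal subgroup with commutative quotient -/
theorem ne_of_comm {A : Type u} [Group A] [Finite A] (N : Subgroup A) [N.Normal]
    (hN : ∀ x y : A, x * y * x⁻¹ * y⁻¹ ∈ N) (χ : IrrCharacter A) (h : 0 < vd 2 (χ : A → ℂ)) :
    ∃ n ∈ N, (χ : A → ℂ) n ≠ (χ : A → ℂ) 1 := by
  by_contra hcon
  push Not at hcon
  have h1 := Cfsg.Agent.OddOrderCharacters.PF9.GaloisClifford.degree_one_of_comm χ.2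
    (fun s t => hcon _ (hN s t))
  have h2 : charDegree (χ : A → ℂ) = 1 := (Cfsg.Agent.H686.CharKit.charDegree_eq_one_iff χ).2 h1
  unfold vd at h
  rw [h2, Nat.factorization_one] at h
  exact absurd h (by simp)

/-- `x` acts as a permutation -/
def PermAct {A : Type u} [Group A] (N : Subgroup A) [N.Normal] {n : ℕ} (e : N ≃* alternatingGroup (Fin n)) (x : A) :
    Prop :=
  ∃ σ : Perm (Fin n), ∀ y : alternatingGroup (Fin n), (act N e x y : Perm (Fin n)) = σ * y * σ⁻¹

theorem act_conj {A : Type u} [Group A] (N : Subgroup A) [N.Normal] {S : Type*} [Group S] (e : N ≃* S) (x : N) (y : S) :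
    act N e x y = e x * y * (e x)⁻¹ := by
  rw [act_apply]
  conv_rhs => rw [← e.apply_symm_apply y, ← map_inv, ← map_mul, ← map_mul]
  rfl

/-- **The embedding in the symmetric group.** -/
theorem exists_emb {A : Type u} [Group A] (N : Subgroup A) [N.Normal] {m : ℕ} (hm : 2 ≤ m)
    (e : N ≃* alternatingGroup (Fin (m + 2))) (hC : centralizer (N : Set A) = ⊥)
    (h : ∀ x : A, PermAct N e x) : ∃ f : A →* Perm (Fin (m + 2)), Function.Injective f := by
  choose f hf using h
  have huniq := fun {σ τ : Perm (Fin (m + 2))} (h : ∀ x : alternatingGroup (Fin (m + 2)), σ * x * σ⁻¹ = τ * x * τ⁻¹) =>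
    Cfsg.Agent.StandardComponent.AltAut.conj_unique hm h
  refine ⟨MonoidHom.mk' f fun x y => huniq fun z => ?_, ?_⟩
  · rw [← hf (x * y) z, map_mul, MulAut.mul_apply, hf x, hf y]
    group
  · rw [injective_iff_map_eq_one]
    intro x hx
    have hx' : f x = 1 := hx
    have h1 : ∀ y : alternatingGroup (Fin (m + 2)), act N e x y = y := by
      intro y
      apply Subtype.ext
      rw [hf x y, hx']
      group
    have h2 : x ∈ centralizer (N : Set A) := by
      rw [mem_centralizer_iff]
      intro z hz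
      have h3 := h1 (e ⟨z, hz⟩)
      rw [act_apply] at h3
      have h4 := congrArg Subtype.val (e.injective h3)
      simp only [MulEquiv.symm_apply_apply] at h4
      rw [mul_inv_eq_iff_eq_mul] at h4
      exact h4.symm
    rw [hC, mem_bot] at h2
    exact h2

theorem card_two {A : Type u} [Group A] [Finite A] (N : Subgroup A) {m : ℕ}
    (e : N ≃* alternatingGroup (Fin (m + 2))) : 2 * Nat.card N = (m + 2).factorial := by
  have : Nontrivial (Fin (m + 2)) := Fin.nontrivial_iff_two_le.2 (by omega)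
  rw [Nat.card_congr e.toEquiv, two_mul_nat_card_alternatingGroup, Nat.card_perm, Nat.card_eq_fintype_card,
    Fintype.card_fin]

theorem index_dvd_two {A : Type u} [Group A] [Finite A] (N : Subgroup A) {m : ℕ}
    (e : N ≃* alternatingGroup (Fin (m + 2))) (f : A →* Perm (Fin (m + 2))) (hf : Function.Injective f) :
    N.index ∣ 2 := by
  have h1 := Subgroup.card_dvd_of_injective f hf
  rw [Nat.card_perm, Nat.card_fin, ← card_two N e, ← N.card_mul_index, mul_comm 2] at h1
  exact Nat.dvd_of_mul_dvd_mul_left Nat.card_pos h1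

theorem comm_of_index_two {A : Type u} [Group A] (N : Subgroup A) [N.Normal] (h : N.index = 2) (x y : A) :
    x * y * x⁻¹ * y⁻¹ ∈ N := by
  have h1 : Nat.card (A ⧸ N) = 2 := h
  have hp : Fact (Nat.Prime 2) := ⟨Nat.prime_two⟩
  have hc : IsCyclic (A ⧸ N) := isCyclic_of_prime_card h1
  have h2 : ∀ u v : A ⧸ N, u * v = v * u := (IsCyclic.commGroup (α := A ⧸ N)).mul_comm
  rw [← QuotientGroup.eq_one_iff]
  show (x : A ⧸ N) * y * (x : A ⧸ N)⁻¹ * (y : A ⧸ N)⁻¹ = 1
  rw [h2 x y]
  group

/-- transport of a character of height one -/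
theorem one_congr {G H : Type*} [Group G] [Finite G] [Group H] [Finite H] (e : G ≃* H) {M : Ideal AlgInt}
    (h : ∃ χ : IrrCharacter G, χ ∈ principalBlock M G ∧ vd 2 (χ : G → ℂ) = 1) :
    ∃ χ : IrrCharacter H, χ ∈ principalBlock M H ∧ vd 2 (χ : H → ℂ) = 1 := by
  obtain ⟨χ, hχ, h1⟩ := h
  refine ⟨H649.irrMap e χ, ?_, ?_⟩
  · rw [← H649.blkMap_principalBlock e]
    exact H649.irrMap_mem_blkMap.2 hχ
  · rw [vd, H649.charDegree_irrMap]
    exact h1

/-- **The case of the symmetric group.** -/
theorem good_of_sym {A : Type u} [Group A] [Finite A] (N : Subgroup A) [N.Normal] {m : ℕ} (hm : 2 ≤ m)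
    (e : N ≃* alternatingGroup (Fin (m + 2))) (hC : centralizer (N : Set A) = ⊥)
    (h : ∀ x : A, PermAct N e x) (hi : N.index ≠ 1) {M : Ideal AlgInt}
    (hs : ∃ χ : IrrCharacter (Perm (Fin (m + 2))), χ ∈ principalBlock M (Perm (Fin (m + 2))) ∧
      vd 2 (χ : Perm (Fin (m + 2)) → ℂ) = 1) {a : ℕ} (ha : 0 < a) : GoodOn 2 a M N := by
  obtain ⟨f, hf⟩ := exists_emb N hm e hC h
  have h2 := ((Nat.dvd_prime Nat.prime_two).1 (index_dvd_two N e f hf)).resolve_left hi
  have hcard : Nat.card A = Nat.card (Perm (Fin (m + 2))) := by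
    rw [Nat.card_perm, Nat.card_fin, ← card_two N e, ← N.card_mul_index, h2, mul_comm]
  have hb : Function.Bijective f := (Nat.bijective_iff_injective_and_card f).2 ⟨hf, hcard⟩
  obtain ⟨χ, hχ, h1⟩ := one_congr (MulEquiv.ofBijective f hb).symm hs
  exact ⟨χ, hχ, ne_of_comm N (comm_of_index_two N h2) χ (by omega), by omega, by omega⟩

end Cfsg.Agent.H93.HT
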