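import Cfsg.Agent.H614.AltBlk
import Cfsg.Agent.S4652
import Cfsg.Agent.Blocks.PrincipalSection
import Cfsg.Agent.H316.HT.Defs

/-!
# S4933, the alternating groups: the symmetric groups, `p = 2`

* `sym_one` : the principal `2`-block of the symmetric group of degree at least six contains a character of
  height one.
-/

set_option autoImplicit false

namespace Cfsg.Agent.H93.HT

open Finset Cfsg Cfsg.Agent.H614 Cfsg.Agent.H316.HT

universe u

variable {α : Type u} [Fintype α] [DecidableEq α] {M : Ideal AlgInt}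

theorem sym_one [Nontrivial α] (hM : IsPModular 2 M) (h6 : 6 ≤ Fintype.card α) :
    ∃ χ : IrrCharacter (Equiv.Perm α), χ ∈ principalBlock M (Equiv.Perm α) ∧ vd 2 (χ : Equiv.Perm α → ℂ) = 1 := by
  classical
  have hp : Fact (Nat.Prime 2) := ⟨Nat.prime_two⟩
  have hMp : M.IsPrime := hM.2.1.isPrime
  have hBB : IsPBlock M (principalBlock M (Equiv.Perm α)) := Blocks.PrincipalSection.isPBlock_principalBlock
  obtain ⟨P⟩ : Nonempty (Sylow 2 (Equiv.Perm α)) := inferInstance
  have hP : IsDefectGroup 2 M (principalBlock M (Equiv.Perm α)) (P : Subgroup (Equiv.Perm α)) :=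
    (S4652.result 2 M hM _).2 ⟨P, rfl⟩
  obtain ⟨χ, hχ⟩ := Blocks.Basic.isPBlock_nonempty hBB
  obtain ⟨β, hβ, hs, hχβ⟩ := irr_eq (α := α) (m := Fintype.card α + 2 * 2) (by omega) χ.2
  obtain ⟨w, hw⟩ : ∃ w, ∑ j, β j / 2 = w + npairs 2 β :=
    ⟨_, (Nat.sub_add_cancel (npairs_le hp.out.pos hβ.injective)).symm⟩
  obtain ⟨κ, hκ, hκc, hκw, hpw, hκs, -⟩ := exists_core hp.out.pos hβ.injective hw hs
  obtain ⟨z, hz, hz1, hz2, hPc⟩ := defect_structure hM (by omega) hBB hβ hs hχ hχβ hw hP
  have hcard : w + padicValNat 2 w.factorial = padicValNat 2 (Fintype.card α).factorial := by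
    have h1 := P.card_eq_multiplicity
    rw [hPc] at h1
    have h2 := Nat.pow_right_injective (le_refl 2) h1
    rw [h2, Nat.card_perm, Nat.card_eq_fintype_card, Nat.factorization_def _ Nat.prime_two]
  have hw3 : 3 ≤ w := by
    by_contra hcon
    have h1 : padicValNat 2 (Nat.factorial 6) ≤ padicValNat 2 (Fintype.card α).factorial :=
      padicValNat_dvd_iff_le (Nat.factorial_ne_zero _) |>.1 
        ((pow_padicValNat_dvd).trans (Nat.factorial_dvd_factorial h6))
    have h2 : padicValNat 2 w.factorial ≤ 1 := by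
      have h3 : w = 0 ∨ w = 1 ∨ w = 2 := by omega
      rcases h3 with rfl | rfl | rfl
      · simp
      · simp
      · rw [Nat.factorial_two, padicValNat_self]
    have h4 : padicValNat 2 (Nat.factorial 6) = 4 := by
      rw [show Nat.factorial 6 = 2 ^ 4 * 45 by decide, padicValNat.mul (by norm_num) (by norm_num), padicValNat.prime_pow,
        padicValNat.eq_zero_of_not_dvd (by norm_num)]
    omega
  obtain ⟨γ, hγ, hγc, hsγ, hval, -⟩ := exists_height_one_two hκ hκw hpw hκs (by omega) hw3
  have hmem : (⟨ch α γ, isIrr_ch hγ hsγ⟩ : IrrCharacter (Equiv.Perm α)) ∈ principalBlock M (Equiv.Perm α) := by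
    refine Blocks.Basic.isPBlock_mem_of_sameBlock hBB hχ ?_
    rw [hχβ]
    exact sameBlock_of_sameCol hM hβ hγ hs hsγ (hκc.trans hγc)
  refine ⟨_, hmem, ?_⟩
  show (charDegree (ch α γ)).factorization 2 = 1
  rw [charDegree_ch hγ hsγ, Nat.factorization_def _ Nat.prime_two]
  omega

end Cfsg.Agent.H93.HT
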