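import Cfsg.Agent.H112.HT.Ind
import Cfsg.Agent.H316.HT.Defs
import Mathlib.NumberTheory.LegendreSymbol.AddCharacter

/-!
# S4933: the symmetric group of degree five, `p = 2`

* `sym_five` : the principal `2`-block of the symmetric group of degree five contains a character of degree six
  (induced from a linear character of order four of the Frobenius group of order twenty).
-/

set_option autoImplicit false

namespace Cfsg.Agent.H93.HT.Five

open Cfsg Cfsg.Agent.H316.HT Equiv

/-- the slope -/
def sl (g : Perm (Fin 5)) : Fin 5 := g 1 - g 0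

/-- the affine maps -/
def Aff (g : Perm (Fin 5)) : Prop := ∀ x, g x = sl g * x + g 0

instance : DecidablePred Aff := fun g => by unfold Aff; infer_instance

/-- the logarithm to the base two -/
def lg (a : Fin 5) : ZMod 4 := ![0, 0, 1, 3, 2] a

theorem aff_one : Aff 1 := by decide

theorem aff_mul : ∀ g h : Perm (Fin 5), Aff g → Aff h → Aff (g * h) ∧ lg (sl (g * h)) = lg (sl g) + lg (sl h) := by
  intro g h hg hh
  have h1 : sl (g * h) = sl g * sl h := by
    show g (h 1) - g (h 0) = _
    rw [hg (h 1), hg (h 0)]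
    show _ = sl g * (h 1 - h 0)
    revert hg hh
    generalize sl g = a
    generalize h 1 = b
    generalize h 0 = c
    generalize g 0 = d
    intro _ _
    revert a b c d
    decide
  have hg0 : sl g ≠ 0 := by
    intro h0
    have h2 := hg 1
    rw [h0, zero_mul, zero_add] at h2
    exact absurd (g.injective h2) (by decide)
  have hh0 : sl h ≠ 0 := by
    intro h0
    have h2 := hh 1
    rw [h0, zero_mul, zero_add] at h2
    exact absurd (h.injective h2) (by decide)
  constructor
  · intro x
    rw [h1]
    show g (h x) = _ + g (h 0)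
    rw [hg (h x), hh x, hg (h 0)]
    generalize sl g = a
    generalize sl h = b
    generalize h 0 = c
    generalize g 0 = d
    revert a b c d x
    decide
  · rw [h1]
    revert hg0 hh0
    generalize sl g = a
    generalize sl h = b
    revert a b
    decide

theorem aff_inv : ∀ g : Perm (Fin 5), Aff g → Aff g⁻¹ := by decide +kernel

/-- the group of affine maps -/
def H : Subgroup (Perm (Fin 5)) where
  carrier := {g | Aff g}
  one_mem' := aff_one
  mul_mem' := fun hg hh => (aff_mul _ _ hg hh).1
  inv_mem' := fun hg => aff_inv _ hg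

instance : DecidablePred (· ∈ H) := fun g => inferInstanceAs (Decidable (Aff g))

theorem index_H : H.index = 6 := by
  have h1 := H.card_mul_index
  have h2 : Nat.card H = 20 := by
    rw [Nat.card_eq_fintype_card]
    decide +kernel
  rw [h2, Nat.card_perm, Nat.card_eq_fintype_card, Fintype.card_fin, show Nat.factorial 5 = 20 * 6 by decide] at h1
  omega

/-- the linear character of order four -/
noncomputable def lin : H →* ℂ where
  toFun g := ZMod.stdAddChar (lg (sl g))
  map_one' := by
    have : lg (sl ((1 : H) : Perm (Fin 5))) = 0 := by decide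
    rw [this, AddChar.map_zero_eq_one]
  map_mul' g h := by
    have := (aff_mul g h g.2 h.2).2
    rw [Subgroup.coe_mul, this, AddChar.map_add_eq_mul]

/-- the linear character with values in the units -/
noncomputable def l : H →* ℂˣ := lin.toHomUnits

theorem l_apply (g : H) : (l g : ℂ) = ZMod.stdAddChar (lg (sl g)) := rfl

theorem l_pow : l ^ 2 ^ 2 = 1 := by
  ext g
  show ((l g ^ 4 : ℂˣ) : ℂ) = 1
  rw [Units.val_pow_eq_pow_val, l_apply, ← AddChar.map_nsmul_eq_pow]
  have : (4 : ℕ) • lg (sl (g : Perm (Fin 5))) = 0 := by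
    rw [nsmul_eq_mul, show ((4 : ℕ) : ZMod 4) = 0 from rfl, zero_mul]
  rw [this, AddChar.map_zero_eq_one]

theorem mackey : ∀ g : Perm (Fin 5), ¬ Aff g → ∃ a : Perm (Fin 5), Aff a ∧ Aff (g * a * g⁻¹) ∧
    lg (sl (g * a * g⁻¹)) ≠ lg (sl a) := by
  decide +kernel

/-- **The symmetric group of degree five.** -/
theorem sym_five {M : Ideal AlgInt} (hM : IsPModular 2 M) :
    ∃ χ : IrrCharacter (Perm (Fin 5)), χ ∈ principalBlock M (Perm (Fin 5)) ∧ vd 2 (χ : Perm (Fin 5) → ℂ) = 1 := by
  have hp : Fact (Nat.Prime 2) := ⟨Nat.prime_two⟩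
  obtain ⟨χ, hχ, -, hd⟩ := Cfsg.Agent.H112.HT.exists_mackey hM H l ⟨2, l_pow⟩ (by
    intro g hg
    by_contra hgH
    obtain ⟨a, ha, hb, hne⟩ := mackey g hgH
    have h1 := congrArg (fun u : ℂˣ => (u : ℂ)) (hg ⟨a, ha⟩ ⟨g * a * g⁻¹, hb⟩ rfl)
    rw [l_apply, l_apply] at h1
    exact hne (ZMod.injective_stdAddChar h1).symm)
  refine ⟨χ, hχ, ?_⟩
  show (charDegree (χ : Perm (Fin 5) → ℂ)).factorization 2 = 1
  rw [hd, index_H, show (6 : ℕ) = 2 ^ 1 * 3 by norm_num, Nat.factorization_mul (by norm_num) (by norm_num),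
    Nat.Prime.factorization_pow Nat.prime_two]
  simp [Nat.factorization_eq_zero_of_not_dvd]

end Cfsg.Agent.H93.HT.Five
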